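import Cfsg.Agent.BinaryPSL.Facts
import Cfsg.Agent.AutPSL.Outer
import Cfsg.Agent.AutPSL.Unique
import Cfsg.Agent.PSL2Two.Concrete

/-!
`PSL(2, F)` with abelian Sylow 2-subgroups: a four group which every 2-automorphism centralising
it induces from inside; in characteristic 2 the centraliser of an involution is abelian.
-/

set_option autoImplicit false
set_option linter.style.haveILetI false

namespace CfsgLib.AbPSL44

open CfsgLib CfsgLib.SL2

variable {F : Type*} [Field F]

local notation "SLF" => Matrix.SpecialLinearGroup (Fin 2) F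
local notation "PF" => Matrix.ProjectiveSpecialLinearGroup (Fin 2) F
local notation "GLF" => GL (Fin 2) F

/-- In characteristic 2 the centraliser of an involution is commutative. -/
theorem commute_of_two_eq_zero (h2 : (2 : F) = 0) {x y z : PF} (hx : orderOf x = 2)
    (hy : Commute x y) (hz : Commute x z) : Commute y z := by
  have : CharP F 2 := CharTwo.of_one_ne_zero_of_two_eq_zero one_ne_zero h2
  obtain ⟨X, rfl⟩ := pmk_surjective x
  obtain ⟨Y, rfl⟩ := pmk_surjective y
  obtain ⟨Z, rfl⟩ := pmk_surjective z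
  have lift : ∀ A B : SLF, Commute (pmk A) (pmk B) → A * B = B * A := by
    intro A B h
    rcases pmk_eq_iff.1 (show pmk (A * B) = pmk (B * A) by rw [map_mul, map_mul]; exact h) with e | e
    · exact e
    · rw [e, ← neg_one_mul, neg_one_eq_one, one_mul]
  have hX : pmk X ≠ 1 := fun h => by rw [h, orderOf_one] at hx; omega
  have := centralizer_commute (BinaryPSL.not_mem_center hX)
    (Subgroup.mem_centralizer_singleton_iff.2 (lift _ _ hy).symm)
    (Subgroup.mem_centralizer_singleton_iff.2 (lift _ _ hz).symm)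
  exact (show Commute Y Z from this).map pmk

/-- An element of order eight in `Fˣ` gives a nonabelian 2-subgroup. -/
theorem not_eight_dvd [Fintype F]
    (hab : ∀ Q : Subgroup PF, IsPGroup 2 Q → ∀ u ∈ Q, ∀ v ∈ Q, Commute u v) :
    ¬ 8 ∣ Fintype.card F - 1 := by
  classical
  intro h8
  have : Fact (Nat.Prime 2) := ⟨Nat.prime_two⟩
  have hcard : Fintype.card Fˣ = Fintype.card F - 1 := Fintype.card_units F
  obtain ⟨g, hg⟩ := IsCyclic.exists_generator (α := Fˣ)
  have hgo : orderOf g = Fintype.card F - 1 := by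
    rw [orderOf_eq_card_of_forall_mem_zpowers hg, Nat.card_eq_fintype_card, hcard]
  set ζ := g ^ ((Fintype.card F - 1) / 8) with hζ
  have hζo : orderOf ζ = 8 := by
    have h0 : (Fintype.card F - 1) ≠ 0 := by
      have := Fintype.one_lt_card (α := F); omega
    rw [hζ, orderOf_pow, hgo, Nat.gcd_eq_right (Nat.div_dvd_of_dvd h8),
      Nat.div_div_self h8 h0]
  have hd : ∀ a : Fˣ, pmk (d a : SLF) = 1 → a * a = 1 := by
    intro a hk
    have h1 : (a : F) * (a : F) = 1 := by
      rcases pmk_eq_one_iff.1 hk with e | e <;>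
        · have h := congrArg (fun z : SLF => z.1 0 0) e
          simp [SL2.coe_d] at h
          rw [h]
          simp
    exact Units.ext (by simpa using h1)
  set x : PF := pmk (d ζ)
  set b : PF := pmk w
  have hx2 : x * x ≠ 1 := by
    intro h
    have h4 := hd (ζ * ζ) (by rw [map_mul, map_mul]; exact h)
    have : ζ ^ 4 = 1 := by rw [← h4, show (4:ℕ) = 2 * 2 from rfl, pow_mul, pow_two, pow_two]
    have := orderOf_dvd_of_pow_eq_one this
    rw [hζo] at this
    norm_num at this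
  have hx8 : x ^ (2 ^ 3) = 1 := by
    rw [← map_pow, ← map_pow, show (2 : ℕ) ^ 3 = orderOf ζ by rw [hζo]; norm_num,
      pow_orderOf_eq_one, map_one, map_one]
  have hb2 : b ^ (2 ^ 1) = 1 := by
    rw [pow_one, pow_two, ← map_mul]
    exact pmk_eq_one_iff.2 (Or.inr w_mul_w)
  have hinv : b * x * b⁻¹ = x⁻¹ := by
    change pmk w * pmk (d ζ) * (pmk w)⁻¹ = (pmk (d ζ))⁻¹
    rw [← map_inv, ← map_mul, ← map_mul, w_conj_d, map_inv, map_inv]
  have hbn : Subgroup.zpowers b ≤ Subgroup.normalizer (Subgroup.zpowers x : Set PF) := by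
    refine Subgroup.zpowers_le.2 (Subgroup.mem_normalizer_iff_map_conj_eq.2 ?_)
    rw [MonoidHom.map_zpowers]
    change Subgroup.zpowers (b * x * b⁻¹) = _
    rw [hinv, Subgroup.zpowers_inv]
  have hp : ∀ (z : PF) (k : ℕ), z ^ (2 ^ k) = 1 → IsPGroup 2 (Subgroup.zpowers z) := fun z k hz => by
    rintro ⟨y, hy⟩
    obtain ⟨i, rfl⟩ := Subgroup.mem_zpowers_iff.1 hy
    refine ⟨k, Subtype.ext ?_⟩
    change (z ^ i) ^ (2 ^ k) = 1
    rw [← zpow_natCast, ← zpow_mul, mul_comm, zpow_mul, zpow_natCast, hz, one_zpow]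
  have hQ : IsPGroup 2 (Subgroup.zpowers b ⊔ Subgroup.zpowers x : Subgroup PF) :=
    (hp b 1 hb2).to_sup_of_normal_right' (hp x 3 hx8) hbn
  have hc := hab _ hQ b (Subgroup.mem_sup_left (Subgroup.mem_zpowers b)) x
    (Subgroup.mem_sup_right (Subgroup.mem_zpowers x))
  rw [hc.eq, mul_inv_cancel_right] at hinv
  exact hx2 (by nth_rw 2 [hinv]; exact mul_inv_cancel x)

/-- The field automorphism part of a 2-automorphism is trivial. -/
theorem exists_conjPSL [Fintype F] (h2 : (2 : F) ≠ 0) (h8 : ¬ 8 ∣ Fintype.card F - 1)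
    (β : MulAut PF) (k : ℕ) (hβ : β ^ (2 ^ k) = 1) :
    ∃ g : GLF, β = AutPSL.conjPSL g := by
  classical
  obtain ⟨g, σ, rfl⟩ := AutPSL.exists_decomposition_two β
  refine ⟨g, ?_⟩
  have hpow : ∀ N : ℕ, ∃ g' : GLF,
      (AutPSL.conjHom g * AutPSL.fieldHom σ : MulAut PF) ^ N =
        AutPSL.conjPSL g' * AutPSL.mapPSL (σ ^ N : RingAut F) := by
    intro N
    induction N with
    | zero => exact ⟨1, by rw [pow_zero, pow_zero, AutPSL.conjPSL_one, one_mul]; exact AutPSL.mapPSL_one.symm⟩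
    | succ N ih =>
      obtain ⟨g', hg'⟩ := ih
      refine ⟨g' * Matrix.GeneralLinearGroup.map ((σ ^ N : RingAut F) : F →+* F) g, ?_⟩
      rw [pow_succ, hg']
      change AutPSL.conjPSL g' * AutPSL.mapPSL (σ ^ N : RingAut F) *
        (AutPSL.conjPSL g * AutPSL.mapPSL σ) = _
      rw [mul_assoc, ← mul_assoc (AutPSL.mapPSL _) (AutPSL.conjPSL g),
        AutPSL.mapPSL_mul_conjPSL, AutPSL.conjPSL_mul, pow_succ, AutPSL.mapPSL_mul]
      group
  obtain ⟨g', hg'⟩ := hpow (2 ^ k)
  rw [hβ] at hg'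
  have hσk : (σ ^ (2 ^ k) : RingAut F) = 1 :=
    (AutPSL.eq_one_of_conj_map_eq_one le_rfl hg'.symm).2
  obtain ⟨p, hp⟩ := CharP.exists F
  haveI := Fact.mk (CharP.char_is_prime F p)
  obtain ⟨f, hpp, hF⟩ := FiniteField.card F p
  obtain ⟨e⟩ := AutPSL.autField_equiv (F := F) (p := p) (f := (f : ℕ)) f.pos hF
  have hf : Odd (f : ℕ) := by
    by_contra hev
    obtain ⟨m, hm⟩ := Nat.not_odd_iff_even.1 hev
    have hqodd := SL2.two_ne_zero_iff_odd.1 h2
    rw [hF, Nat.odd_pow_iff f.pos.ne'] at hqodd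
    apply h8
    rw [hF, hm, ← two_mul, pow_mul]
    have h1 : 8 ∣ p ^ 2 - 1 := Nat.eight_dvd_sq_sub_one_of_odd hqodd
    exact h1.trans (by simpa using Nat.sub_dvd_pow_sub_pow (p ^ 2) 1 m)
  have hσ1 : σ = 1 := by
    refine orderOf_eq_one_iff.1 ?_
    refine Nat.eq_one_of_dvd_coprimes (Nat.Coprime.pow_left k (Nat.coprime_two_left.2 hf))
      (orderOf_dvd_of_pow_eq_one hσk) ?_
    have := orderOf_dvd_natCard σ
    rwa [Nat.card_congr e.toEquiv, Nat.card_congr Multiplicative.toAdd, Nat.card_zmod] at this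
  rw [hσ1, map_one, mul_one]
  rfl

theorem pmk_conj (g : GLF) (s : SLF) :
    (AutPSL.conjPSL g : MulAut PF) (pmk s) = pmk (AutPSL.conjSLFun g s) := rfl

/-- A four group whose 2-automorphism centraliser is inner. -/
theorem exists_four [Fintype F] (h2 : (2 : F) ≠ 0) :
    ∃ a b : PF, a * a = 1 ∧ b * b = 1 ∧ a ≠ 1 ∧ b ≠ 1 ∧ a ≠ b ∧ Commute a b ∧
      (¬ 8 ∣ Fintype.card F - 1 → ∀ (β : MulAut PF) (k : ℕ), β ^ (2 ^ k) = 1 → β a = a → β b = b →
        ∃ e : PF, e * e = 1 ∧ Commute e a ∧ Commute e b ∧ β = MulAut.conj e) := by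
  classical
  have hodd : Fintype.card F % 2 = 1 := Nat.odd_iff.1 (SL2.two_ne_zero_iff_odd.1 h2)
  obtain ⟨x, y, hxy⟩ := PSL2Two.sq_add_sq_eq hodd (-1 : F)
  set I : SLF := w with hI
  set J : SLF := mk4 x y y (-x) (by linear_combination -hxy) with hJ
  have hI2 : I * I = -1 := w_mul_w
  have hJ2 : J * J = -1 := by
    apply ext4 <;> simp [hJ, Matrix.mul_apply, Fin.sum_univ_two] <;>
      first | linear_combination hxy | ring
  have hJI : J * I = -(I * J) := by
    apply ext4 <;> simp [hI, hJ, Matrix.mul_apply, Fin.sum_univ_two]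
  have ne0 : pmk I ≠ 1 := by
    intro h
    rcases pmk_eq_one_iff.1 h with e | e <;>
      · have := congrArg (fun z : SLF => z.1 0 1) e
        simp [hI] at this
  have hsq : ∀ A : SLF, A * A = -1 → pmk A * pmk A = 1 := fun A hA => by
    rw [← map_mul]; exact pmk_eq_one_iff.2 (Or.inr hA)
  have ne1 : pmk J ≠ 1 := by
    intro h
    rcases pmk_eq_one_iff.1 h with e | e <;>
      · rw [e] at hJ2
        simp at hJ2
        exact SL2.neg_one_ne_one h2 hJ2.symm
  have hc : Commute (pmk I) (pmk J) := by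
    change pmk I * pmk J = pmk J * pmk I
    rw [← map_mul, ← map_mul, hJI, pmk_neg]
  have hne : pmk I ≠ pmk J := by
    intro h
    rcases pmk_eq_iff.1 h with e | e
    · rw [← e] at hJI
      rw [hI2, neg_neg] at hJI
      exact SL2.neg_one_ne_one h2 hJI
    · have e' : J = -I := by rw [e, neg_neg]
      rw [e', neg_mul, mul_neg, hI2, neg_neg] at hJI
      exact SL2.neg_one_ne_one h2 hJI.symm
  refine ⟨pmk I, pmk J, hsq I hI2, hsq J hJ2, ne0, ne1, hne, hc, fun h8 β k hβ ha hb => ?_⟩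
  obtain ⟨g, rfl⟩ := exists_conjPSL h2 h8 β k hβ
  set G : Matrix (Fin 2) (Fin 2) F := g.1
  have hsgn : ∀ A : SLF, (AutPSL.conjPSL g : MulAut PF) (pmk A) = pmk A →
      G * A.1 = A.1 * G ∨ G * A.1 = -(A.1 * G) := by
    intro A hA
    rw [pmk_conj, pmk_eq_iff] at hA
    have key : ∀ B : SLF, AutPSL.conjSLFun g A = B → G * A.1 = B.1 * G := by
      intro B hB
      rw [← hB, AutPSL.coe_conjSLFun, mul_assoc (G * A.1), Units.inv_mul, mul_one]
    rcases hA with e | e
    · exact Or.inl (key A e)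
    · refine Or.inr ((key _ e).trans ?_)
      rw [Matrix.SpecialLinearGroup.coe_neg, neg_mul]
  have hJIm : J.1 * I.1 = -(I.1 * J.1) := by
    rw [← Matrix.SpecialLinearGroup.coe_mul, hJI, Matrix.SpecialLinearGroup.coe_neg,
      Matrix.SpecialLinearGroup.coe_mul]
  obtain ⟨E, hEsq, hEI, hEJ, hcI, hcJ⟩ : ∃ E : SLF, pmk E * pmk E = 1 ∧
      Commute (pmk E) (pmk I) ∧ Commute (pmk E) (pmk J) ∧
      (G * E.1) * I.1 = I.1 * (G * E.1) ∧ (G * E.1) * J.1 = J.1 * (G * E.1) := by
    rcases hsgn I ha with hI' | hI' <;> rcases hsgn J hb with hJ' | hJ'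
    · exact ⟨1, by rw [map_one, one_mul], by rw [map_one]; exact Commute.one_left _,
        by rw [map_one]; exact Commute.one_left _, by simpa using hI', by simpa using hJ'⟩
    · refine ⟨I, hsq I hI2, Commute.refl _, hc, ?_, ?_⟩
      · rw [← mul_assoc I.1, ← hI']
      · calc G * I.1 * J.1 = G * -(J.1 * I.1) := by rw [mul_assoc, hJIm, neg_neg]
          _ = -(G * J.1) * I.1 := by rw [mul_neg, neg_mul, ← mul_assoc]
          _ = J.1 * (G * I.1) := by rw [hJ', neg_neg, mul_assoc]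
    · refine ⟨J, hsq J hJ2, hc.symm, Commute.refl _, ?_, ?_⟩
      · calc G * J.1 * I.1 = -((G * I.1) * J.1) := by rw [mul_assoc, hJIm, mul_neg, ← mul_assoc]
          _ = I.1 * (G * J.1) := by rw [hI', neg_mul, neg_neg, mul_assoc]
      · rw [← mul_assoc J.1, ← hJ']
    · refine ⟨I * J, ?_, ?_, ?_, ?_, ?_⟩
      · rw [map_mul, hc.symm.mul_mul_mul_comm, hsq I hI2, hsq J hJ2, one_mul]
      · rw [map_mul]; exact (Commute.refl _).mul_left hc.symm
      · rw [map_mul]; exact hc.mul_left (Commute.refl _)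
      · rw [Matrix.SpecialLinearGroup.coe_mul]
        calc G * (I.1 * J.1) * I.1 = -(G * I.1 * (I.1 * J.1)) := by
              rw [mul_assoc, mul_assoc I.1 J.1, hJIm, mul_neg, mul_neg, mul_assoc G]
          _ = I.1 * (G * (I.1 * J.1)) := by
              rw [hI', neg_mul, neg_neg, mul_assoc]
      · rw [Matrix.SpecialLinearGroup.coe_mul]
        calc G * (I.1 * J.1) * J.1 = -(G * (J.1 * I.1) * J.1) := by
              rw [hJIm, mul_neg, neg_mul, neg_neg]
          _ = -(G * J.1) * (I.1 * J.1) := by noncomm_ring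
          _ = J.1 * (G * (I.1 * J.1)) := by rw [hJ', neg_neg, mul_assoc]
  refine ⟨pmk E, hEsq, hEI, hEJ, ?_⟩
  set M : Matrix (Fin 2) (Fin 2) F := G * E.1
  have hxy0 : x ≠ 0 ∨ y ≠ 0 := by
    by_contra h
    obtain ⟨rfl, rfl⟩ : x = 0 ∧ y = 0 := by simpa [not_or] using h
    simp at hxy
  have e00 := congrFun (congrFun hcI 0) 0
  have e01 := congrFun (congrFun hcI 0) 1
  have f00 := congrFun (congrFun hcJ 0) 0
  have f01 := congrFun (congrFun hcJ 0) 1
  simp [hI, hJ, Matrix.mul_apply, Fin.sum_univ_two] at e00 e01 f00 f01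
  have hn : M 0 1 = 0 := by
    rcases hxy0 with h | h
    · refine (mul_eq_zero.1 (show (2 * x) * M 0 1 = 0 by
        linear_combination (-1 : F) * f01 + y * e01)).resolve_left (mul_ne_zero h2 h)
    · refine (mul_eq_zero.1 (show (2 * y) * M 0 1 = 0 by
        linear_combination f00 - y * e00)).resolve_left (mul_ne_zero h2 h)
  have hM : M = M 0 0 • (1 : Matrix (Fin 2) (Fin 2) F) := by
    ext i j
    fin_cases i <;> fin_cases j <;> simp
    · exact hn
    · linear_combination -e00 - hn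
    · linear_combination -e01
  have hcen : g * Matrix.SpecialLinearGroup.toGL E ∈ Subgroup.center GLF := by
    refine Subgroup.mem_center_iff.2 fun h => Units.ext ?_
    change h.1 * M = M * h.1
    rw [hM]
    simp
  have h1 := AutPSL.conjPSL_of_mem_center hcen
  rw [AutPSL.conjPSL_mul, ← AutPSL.conj_eq_conjPSL, mul_eq_one_iff_eq_inv, ← map_inv] at h1
  rw [h1]
  congr 1
  exact inv_eq_of_mul_eq_one_right hEsq

end CfsgLib.AbPSL44
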